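import Cfsg.Agent.H37.HT.Fd
import Mathlib.GroupTheory.Sylow
import Mathlib.Tactic

/-!
# S4933, part (O), box O.out (helper420)

`auts_of_card` : the Sylow `p`-subgroup of `Out S` is generated by a power of `φ`.
-/

set_option autoImplicit false

open Subgroup
open scoped Pointwise

namespace Cfsg.Agent.H420.HT

open Cfsg Cfsg.Agent.H37.HT

universe u

variable {p r f : ℕ} {S : Type u} [Group S]

theorem isP_pow {x : S} (h : IsP p x) (n : ℕ) : IsP p (x ^ n) := by
  obtain ⟨k, hk⟩ := h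
  exact ⟨k, by rw [← pow_mul, mul_comm, pow_mul, hk, one_pow]⟩

theorem isP_aut {x : S} (h : IsP p x) (t : MulAut S) : IsP p (t x) := by
  obtain ⟨k, hk⟩ := h
  exact ⟨k, by rw [← map_pow, hk, map_one]⟩

/-- the powers `r ^ n` acting trivially -/
def EE (D : FD p r f S) (n : ℕ) : Prop := ∀ x : S, IsP p x → D.F (x ^ r ^ n) = D.F x

variable {D : FD p r f S}

theorem EE.zero : EE D 0 := fun x _ => by rw [pow_zero, pow_one]

theorem EE.add {n m : ℕ} (h1 : EE D n) (h2 : EE D m) : EE D (n + m) := fun x hx => by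
  rw [pow_add, mul_comm, pow_mul, h1 _ (isP_pow hx _), h2 x hx]

theorem EE.sub {n m : ℕ} (h1 : EE D n) (h2 : EE D (n + m)) : EE D m := fun x hx => by
  have h3 := h2 x hx
  rw [pow_add, mul_comm, pow_mul, h1 _ (isP_pow hx _)] at h3
  exact h3

theorem EE.mul {n : ℕ} (h1 : EE D n) (k : ℕ) : EE D (n * k) := by
  induction k with
  | zero => exact EE.zero
  | succ k ih => rw [mul_add, mul_one]; exact ih.add h1

theorem EE.gcd : ∀ {a b : ℕ}, EE D a → EE D b → EE D (Nat.gcd a b) := by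
  intro a
  induction a using Nat.strong_induction_on with
  | _ a ih =>
    intro b h1 h2
    rcases Nat.eq_zero_or_pos a with rfl | ha
    · rwa [Nat.gcd_zero_left]
    · rw [Nat.gcd_rec]
      refine ih _ (Nat.mod_lt _ ha) ?_ h1
      refine (h1.mul (b / a)).sub ?_
      rwa [Nat.div_add_mod]

theorem EE.dvd {a b : ℕ} (h : EE D a) (hd : a ∣ b) : EE D b := by
  obtain ⟨k, rfl⟩ := hd
  exact h.mul k

/-- the exact power of `p` -/
theorem EE.pow_dvd (hp : p.Prime) (hf : 0 < f) (hT : Test D) {n : ℕ} (h : EE D n) : p ^ f.factorization p ∣ n := by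
  by_contra hcon
  have hE : EE D f := D.frob
  have hg := hE.gcd h
  set g := Nat.gcd f n with hgd
  have hgf : g ∣ f := Nat.gcd_dvd_left _ _
  have hgn : g ∣ n := Nat.gcd_dvd_right _ _
  have hg0 : g ≠ 0 := (Nat.pos_of_dvd_of_pos hgf hf).ne'
  obtain ⟨c, hc⟩ := hgf
  have hc0 : c ≠ 0 := by
    rintro rfl
    omega
  have hpc : p ∣ c := by
    by_contra hpc
    apply hcon
    refine dvd_trans ?_ hgn
    rw [hc, Nat.factorization_mul hg0 hc0, Finsupp.add_apply, Nat.factorization_eq_zero_of_not_dvd hpc, add_zero]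
    exact Nat.ordProj_dvd _ _
  obtain ⟨c', rfl⟩ := hpc
  have hpf : p ∣ f := by rw [hc]; exact (dvd_mul_right _ _).mul_left _
  obtain ⟨y, hy, hy2⟩ := hT hpf
  have h3 : f / p = g * c' := by
    rw [hc, show g * (p * c') = p * (g * c') by ring]
    exact Nat.mul_div_cancel_left _ hp.pos
  have h4 : EE D (f / p) := by rw [h3]; exact hg.mul c'
  apply hy2
  refine ⟨0, isIntegral_zero, ?_⟩
  rw [h4 y hy, sub_self, mul_zero]

/-- powers of the conjugates of `φ` -/
theorem conj_pow_apply {φ : MulAut S} (hφ : ∀ x : S, IsP p x → D.F (φ x) = D.F (x ^ r))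
    (hc : ∀ (g : MulAut S) (x : S), IsP p x → D.F (g (φ (g⁻¹ x))) = D.F (φ x)) (g : MulAut S) (n : ℕ) :
    ∀ x : S, IsP p x → D.F (((g * φ * g⁻¹) ^ n) x) = D.F (x ^ r ^ n) := by
  induction n with
  | zero => intro x _; rw [pow_zero, pow_zero, pow_one]; rfl
  | succ n ih =>
    intro x hx
    set ψ := g * φ * g⁻¹ with hψ
    have h1 : (ψ ^ (n + 1)) x = ψ ((ψ ^ n) x) := by rw [pow_succ']; rfl
    have h2 : ∀ z : S, IsP p z → D.F (ψ z) = D.F (z ^ r) := fun z hz => by
      rw [← hφ z hz, ← hc g z hz]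
      rfl
    rw [h1, h2 _ (isP_aut hx _), ← map_pow, ih _ (isP_pow hx _), ← pow_mul, pow_succ']

theorem map_inn (s x : S) : D.F ((MulAut.conj s) x) = D.F x := by
  rw [MulAut.conj_apply, D.conj]

/-- BOX O.out: the Sylow p-subgroup of Out S is generated by a power of φ -/
theorem auts_of_card {p : ℕ} [Fact p.Prime] {r f : ℕ} {S : Type u} [Group S] [Finite S] (hr : ¬ p ∣ r) (hf : 0 < f)
    (D : FD p r f S) (hT : Test D) (hout : (Nat.card (Out S)).factorization p ≤ f.factorization p)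
    (φ : MulAut S) (hφ : ∀ x : S, IsP p x → D.F (φ x) = D.F (x ^ r)) (hφf : ∃ k : ℕ, ¬ p ∣ k ∧ φ ^ (k * f) ∈ Inn S)
    (hc : ∀ (g : MulAut S) (x : S), IsP p x → D.F (g (φ (g⁻¹ x))) = D.F (φ x)) : D.Auts := by
  have hp : p.Prime := Fact.out
  have hfin : Finite (MulAut S) := Finite.of_injective (fun t : MulAut S => (t : S → S)) fun a b h => by
    ext x
    exact congrFun h x
  let q : MulAut S →* Out S := QuotientGroup.mk' (Inn S)
  have hq : ∀ t : MulAut S, q t = 1 ↔ t ∈ Inn S := fun t => QuotientGroup.eq_one_iff t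
  set c := f.factorization p with hcdef
  set o := orderOf (q φ) with ho
  have hopos : 0 < o := orderOf_pos _
  have hφn : ∀ n : ℕ, ∀ x : S, IsP p x → D.F ((φ ^ n) x) = D.F (x ^ r ^ n) := by
    intro n x hx
    have h1 := conj_pow_apply hφ hc 1 n x hx
    rwa [one_mul, inv_one, mul_one] at h1
  have hinn : ∀ t : MulAut S, t ∈ Inn S → ∀ x : S, D.F (t x) = D.F x := by
    rintro _ ⟨s, rfl⟩ x
    exact map_inn s x
  -- the order of `φ` modulo the inner automorphisms
  have ho1 : p ^ c ∣ o := by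
    refine EE.pow_dvd (D := D) hp hf hT fun x hx => ?_
    rw [← hφn o x hx]
    refine hinn _ ((hq _).1 ?_) x
    rw [map_pow, ho, pow_orderOf_eq_one]
  have ho2 : o.factorization p ≤ c := by
    obtain ⟨k, hk, hk2⟩ := hφf
    have h1 : o ∣ k * f := by
      rw [ho]
      refine orderOf_dvd_of_pow_eq_one ?_
      rw [← map_pow]
      exact (hq _).2 hk2
    have hk0 : k ≠ 0 := by rintro rfl; exact hk (dvd_zero p)
    have h2 := (Nat.factorization_le_iff_dvd hopos.ne' (mul_ne_zero hk0 hf.ne')).2 h1 p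
    rwa [Nat.factorization_mul hk0 hf.ne', Finsupp.add_apply, Nat.factorization_eq_zero_of_not_dvd hk, zero_add] at h2
  obtain ⟨w, hw⟩ := ho1
  have hw0 : w ≠ 0 := by rintro rfl; omega
  have hpw : ¬ p ∣ w := by
    intro hd
    have h1 : p ^ (c + 1) ∣ o := by
      rw [hw, pow_succ]
      exact mul_dvd_mul_left _ hd
    have h2 := (hp.pow_dvd_iff_le_factorization hopos.ne').1 h1
    omega
  have hord : orderOf (q φ ^ w) = p ^ c := by
    rw [orderOf_pow' _ hw0, ← ho, hw, Nat.gcd_eq_right (dvd_mul_left _ _)]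
    exact Nat.mul_div_cancel _ (Nat.pos_of_ne_zero hw0)
  -- the form of the `p`-elements
  have key : ∀ t : MulAut S, PInn p t → ∃ (g : MulAut S) (i : ℕ) (s : S),
      t = (g * φ * g⁻¹) ^ (w * i) * MulAut.conj s := by
    rintro t ⟨k, hk⟩
    have hZ : IsPGroup p (Subgroup.zpowers (q t)) := by
      rw [IsPGroup.iff_card]
      have h1 : orderOf (q t) ∣ p ^ k := orderOf_dvd_of_pow_eq_one (by rw [← map_pow]; exact (hq _).2 hk)
      obtain ⟨j, -, hj⟩ := (Nat.dvd_prime_pow hp).1 h1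
      exact ⟨j, by rw [Nat.card_zpowers, hj]⟩
    have hZ' : IsPGroup p (Subgroup.zpowers (q φ ^ w)) := by
      rw [IsPGroup.iff_card]
      exact ⟨c, by rw [Nat.card_zpowers, hord]⟩
    obtain ⟨Q, hQ⟩ := hZ.exists_le_sylow
    obtain ⟨R, hR⟩ := hZ'.exists_le_sylow
    have hRe : (R : Subgroup (Out S)) = Subgroup.zpowers (q φ ^ w) := by
      symm
      refine Subgroup.eq_of_le_of_card_ge hR ?_
      rw [R.card_eq_multiplicity, Nat.card_zpowers, hord]
      exact Nat.pow_le_pow_right hp.pos hout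
    obtain ⟨g, hg⟩ := MulAction.exists_smul_eq (Out S) R Q
    have h1 : q t ∈ (g • R : Sylow p (Out S)) := by
      rw [hg]
      exact hQ (Subgroup.mem_zpowers _)
    have h2 : g⁻¹ * q t * g ∈ (R : Subgroup (Out S)) := by
      have h3 : q t ∈ ((MulAut.conj g • (R : Subgroup (Out S)) : Subgroup (Out S))) := h1
      rw [Subgroup.mem_pointwise_smul_iff_inv_smul_mem] at h3
      simpa [MulAut.smul_def, MulAut.conj_inv_apply] using h3
    rw [hRe] at h2
    obtain ⟨i, hi⟩ := (mem_powers_iff_mem_zpowers (x := q φ ^ w)).2 h2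
    obtain ⟨g', rfl⟩ := QuotientGroup.mk'_surjective (Inn S) g
    have h3 : q t = q ((g' * φ * g'⁻¹) ^ (w * i)) := by
      have h4 : q t = q g' * (q φ ^ w) ^ i * (q g')⁻¹ := by
        have h5 : (q φ ^ w) ^ i = (q g')⁻¹ * q t * q g' := hi
        rw [h5]
        group
      rw [h4, map_pow, map_mul, map_mul, map_inv, conj_pow, pow_mul]
    have h4 : ((g' * φ * g'⁻¹) ^ (w * i))⁻¹ * t ∈ Inn S := by
      rw [← hq, map_mul, map_inv, h3, inv_mul_cancel]
    obtain ⟨s, hs⟩ := h4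
    exact ⟨g', i, s, by rw [hs]; group⟩
  have act : ∀ (g : MulAut S) (n : ℕ) (s x : S), IsP p x →
      D.F (((g * φ * g⁻¹) ^ n * MulAut.conj s) x) = D.F (x ^ r ^ n) := by
    intro g n s x hx
    have h1 : ((g * φ * g⁻¹) ^ n * MulAut.conj s) x = ((g * φ * g⁻¹) ^ n) (MulAut.conj s x) := rfl
    rw [h1, conj_pow_apply hφ hc g n _ (isP_aut hx _), ← map_pow, map_inn]
  refine ⟨fun t ht => ?_, fun g t ht x hx => ?_, fun t ht h => ?_⟩
  · obtain ⟨g, i, s, rfl⟩ := key t ht
    exact ⟨w * i, fun x hx => act g _ s x hx⟩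
  · obtain ⟨h, i, s, rfl⟩ := key t ht
    rw [act h _ s x hx]
    have h1 : g (((h * φ * h⁻¹) ^ (w * i) * MulAut.conj s) (g⁻¹ x)) =
        (((g * h) * φ * (g * h)⁻¹) ^ (w * i) * MulAut.conj (g s)) x := by
      have h2 : ((g * h) * φ * (g * h)⁻¹) ^ (w * i) = g * (h * φ * h⁻¹) ^ (w * i) * g⁻¹ := by
        rw [conj_pow, conj_pow]
        group
      have h3 : MulAut.conj (g s) = g * MulAut.conj s * g⁻¹ := by
        ext z
        show g s * z * (g s)⁻¹ = g (s * (g⁻¹ z) * s⁻¹)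
        rw [map_mul, map_mul, map_inv]
        congr 2
        exact (MulAut.apply_inv_self S g z).symm
      rw [h2, h3]
      have h4 : g * (h * φ * h⁻¹) ^ (w * i) * g⁻¹ * (g * MulAut.conj s * g⁻¹) =
          g * ((h * φ * h⁻¹) ^ (w * i) * MulAut.conj s) * g⁻¹ := by group
      rw [h4]
      rfl
    rw [h1, act _ _ _ x hx]
  · obtain ⟨g, i, s, rfl⟩ := key t ht
    have h1 : EE D (w * i) := fun x hx => by rw [← act g _ s x hx]; exact h x hx
    have h2 := h1.pow_dvd hp hf hT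
    have h3 : p ^ c ∣ i := (Nat.Coprime.pow_left c ((Nat.Prime.coprime_iff_not_dvd hp).2 hpw)).dvd_of_dvd_mul_left h2
    have h4 : q φ ^ (w * i) = 1 := by
      rw [← orderOf_dvd_iff_pow_eq_one, ← ho, hw, mul_comm]
      exact mul_dvd_mul_left w h3
    rw [← hq, map_mul, map_pow, map_mul, map_mul, map_inv, conj_pow, h4, mul_one, mul_inv_cancel, one_mul]
    exact (hq _).2 ⟨s, rfl⟩

end Cfsg.Agent.H420.HT
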