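import Cfsg.Agent.H420.HT.D4Rho
import Cfsg.Agent.H377.TD.Main
import Cfsg.Agent.H355.HT.Arith
import Cfsg.Agent.H912.HT.Rat2

/-!
# `³D₄(q)`, `3 ∣ q + 1`: a character of the principal 3-block with 3-part 3 of the degree (helper420, S4933)
-/

set_option autoImplicit false
set_option linter.unusedSectionVars false

open scoped ComplexConjugate
open Cfsg

namespace Cfsg.Agent.H420.HT.D4Core

/-- two numbers dividing each other up to powers of `r` -/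
theorem exists_pow {r m d d' : ℕ} (hr : r.Prime) (hd : d ≠ 0) (hd' : d' ≠ 0) (h1 : d ∣ r ^ m * d')
    (h2 : d' ∣ r ^ m * d) : ∃ k, d' = r ^ k * d ∨ d = r ^ k * d' := by
  obtain ⟨a, u, hu, rfl⟩ := Nat.exists_eq_pow_mul_and_not_dvd hd r hr.ne_one
  obtain ⟨b, v, hv, rfl⟩ := Nat.exists_eq_pow_mul_and_not_dvd hd' r hr.ne_one
  have key : ∀ {a b u v : ℕ}, ¬ r ∣ u → r ^ a * u ∣ r ^ m * (r ^ b * v) → u ∣ v := by
    intro a b u v hu h
    have h3 : u ∣ r ^ (m + b) * v := by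
      rw [pow_add, mul_assoc]
      exact (Dvd.intro_left _ rfl).trans h
    exact (Nat.Coprime.pow_right _ ((Nat.Prime.coprime_iff_not_dvd hr).2 hu).symm).dvd_of_dvd_mul_left h3
  have huv : u = v := Nat.dvd_antisymm (key hu h1) (key hv h2)
  subst huv
  rcases le_total a b with h | h
  · obtain ⟨c, rfl⟩ := Nat.exists_eq_add_of_le h
    exact ⟨c, Or.inl (by rw [pow_add]; ring)⟩
  · obtain ⟨c, rfl⟩ := Nat.exists_eq_add_of_le h
    exact ⟨c, Or.inr (by rw [pow_add]; ring)⟩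

/-- the arithmetic -/
theorem arith {r f q m d d' : ℕ} (hr : r.Prime) (hq : q = r ^ f) (h3 : q % 3 = 2)
    (hsum : d + d' = ((q ^ 3 + 1) * (q ^ 8 + q ^ 4 + 1)) * (q - 1))
    (hd : d ≠ 0) (hd' : d' ≠ 0)
    (h1 : d ∣ r ^ m * d') (h2 : d' ∣ r ^ m * d)
    (hsmall : d ≤ (q * (q ^ 4 - q ^ 2 + 1)) ^ 2 ∨ d' ≤ (q * (q ^ 4 - q ^ 2 + 1)) ^ 2) :
    d.factorization 3 = 1 ∧ d'.factorization 3 = 1 ∧ d ≠ d' := by
  have hq2 : 2 ≤ q := by
    by_contra hc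
    have : q % 3 = q := Nat.mod_eq_of_lt (by omega)
    omega
  have hq3 : ¬ 3 ∣ q := by omega
  have hq31 : q ^ 3 ≠ 1 := by
    have : 2 ^ 3 ≤ q ^ 3 := Nat.pow_le_pow_left hq2 3
    omega
  have fac : ∀ {x : ℕ}, 3 ∣ x → ¬ 9 ∣ x → x.factorization 3 = 1 := by
    intro x hx hx9
    have hx0 : x ≠ 0 := by
      rintro rfl
      exact hx9 (dvd_zero _)
    have h4 : 1 ≤ x.factorization 3 :=
      (Nat.prime_three.dvd_iff_one_le_factorization hx0).1 hx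
    have h5 : x.factorization 3 < 2 := by
      by_contra hc
      push Not at hc
      exact hx9 ((Nat.prime_three.pow_dvd_iff_le_factorization hx0).2 hc)
    omega
  -- the ordered case
  have key : ∀ {d d' k : ℕ}, d + d' = ((q ^ 3 + 1) * (q ^ 8 + q ^ 4 + 1)) * (q - 1) → d ≠ 0 → d' = r ^ k * d →
      (d ≤ (q * (q ^ 4 - q ^ 2 + 1)) ^ 2 ∨ d' ≤ (q * (q ^ 4 - q ^ 2 + 1)) ^ 2) →
      d.factorization 3 = 1 ∧ d'.factorization 3 = 1 ∧ d ≠ d' := by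
    intro d d' k hsum hd hk hs
    have hle : d ≤ d' := by
      rw [hk]
      exact Nat.le_mul_of_pos_left _ (Nat.pos_of_ne_zero (pow_ne_zero _ hr.ne_zero))
    have hs' : d ≤ (q * (q ^ 4 - q ^ 2 + 1)) ^ 2 := hs.elim id fun h => hle.trans h
    have hs2 : d * (1 + r ^ k) = (q - 1) * (q ^ 3 + 1) * (q ^ 8 + q ^ 4 + 1) := by
      have : d * (1 + r ^ k) = d + d' := by rw [hk]; ring
      rw [this, hsum]
      ring
    obtain ⟨a1, -, a3, a4⟩ := Cfsg.Agent.H355.HT.deg_three' hr hq h3 hs' hs2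
    have hf := fac a3 a4
    refine ⟨hf, ?_, ?_⟩
    · rw [hk, a1, Nat.factorization_mul (pow_ne_zero _ (by omega)) hd, Finsupp.add_apply, hf,
        Nat.factorization_pow, Finsupp.smul_apply, Nat.factorization_eq_zero_of_not_dvd hq3]
      rfl
    · intro he
      rw [hk, a1] at he
      have h5 : 1 * d = q ^ 3 * d := by rw [one_mul]; exact he
      exact hq31 (Nat.eq_of_mul_eq_mul_right (Nat.pos_of_ne_zero hd) h5).symm
  obtain ⟨k, hk | hk⟩ := exists_pow hr hd hd' h1 h2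
  · exact key hsum hd hk hsmall
  · obtain ⟨a, b, c⟩ := key (by rw [add_comm]; exact hsum) hd' hk hsmall.symm
    exact ⟨b, a, c.symm⟩

open CoxeterSystem Cfsg.Agent.ChevalleyStructure.CoxeterGeom Cfsg.Agent.Tits.Roots Cfsg.Agent.Tits.Core
  Cfsg.Agent.Tits.RootComb Cfsg.Agent.Nodes.Comb Cfsg.Agent.Nodes.Reps Cfsg.Agent.Nodes.BNOf
  Cfsg.Agent.Nodes.BNOf.RGD Cfsg.Agent.Nodes.RGDChev Cfsg.Agent.Nodes.RGDFold
open Cfsg.Agent.Nodes.Bruhat Cfsg.Agent.Nodes.LeviDec Cfsg.Agent.H53.HC Cfsg.Agent.H115.HC.Two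
open Cfsg.Lie Cfsg.Agent.ChevalleyStructure Cfsg.Agent.ChevalleyStructure.TwistedU
  Cfsg.Agent.ChevalleyStructure.TwistedFix Cfsg.Agent.ChevalleyStructure.TwistedFixOrbit
open Cfsg.Agent.Nodes.RGDFoldSL
open Cfsg.Agent.BiChar.TwDFour
open Cfsg.Agent.H115.HC Cfsg.Agent.Characters Cfsg.Agent.H420.HT.D4Pair Cfsg.Agent.H420.HT.DatD4
  Cfsg.Agent.H420.HT.D4Rho Cfsg.Agent.OddOrderCharacters.Clifford Cfsg.Agent.H912.HT
open Cfsg.Agent.H316.HT (vd)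
open MulAction

/-- the ratio, for a pair -/
theorem ratio_pair {G : Type} [Group G] [Finite G] {P U Lv C : Subgroup G} {w : G} (D : Dat P U Lv C w)
    (hwP : w ∉ P) (ρ : IrrCharacter P) (hρ : Chr P U C w (ρ : P → ℂ)) {χ χ' : IrrCharacter G} (hne : χ ≠ χ')
    (h : ∀ [Fintype G], indFun P (ρ : P → ℂ) = (χ : G → ℂ) + (χ' : G → ℂ)) :
    charDegree (χ : G → ℂ) ∣ Nat.card U * charDegree (χ' : G → ℂ) ∧
      charDegree (χ' : G → ℂ) ∣ Nat.card U * charDegree (χ : G → ℂ) := by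
  classical
  have iG : Fintype G := Fintype.ofFinite _
  have iP : Fintype P := Fintype.ofFinite _
  have h' := @h iG
  have e1 : classInner (indFun P (ρ : P → ℂ)) (χ : G → ℂ) = 1 := by
    rw [h', Core.classInner_add_left, Core.classInner_irr_self χ.2,
      Core.classInner_irr_ne χ'.2 χ.2 (fun h => hne (Subtype.ext h.symm)), add_zero]
  rw [classInner_indFun _ _ _ (Core.isIrr_isClassFunction χ.2)] at e1
  have e2 : classInner (fun x : P => (χ : G → ℂ) x) (ρ : P → ℂ) = 1 := by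
    rw [← Core.classInner_conj_symm, e1, map_one]
  obtain ⟨-, -, h3, h4⟩ := ratio D hwP hρ χ e2 (d := charDegree (χ : G → ℂ)) (d' := charDegree (χ' : G → ℂ))
    (Cfsg.Agent.Blocks.Basic.irr_one_eq_charDegree χ.2) (by
      rw [← Cfsg.Agent.Blocks.Basic.irr_one_eq_charDegree χ.2, ← Cfsg.Agent.Blocks.Basic.irr_one_eq_charDegree χ'.2]
      have h5 := congrFun h' 1
      rw [Pi.add_apply, Cfsg.Agent.OddOrderCharacters.IndRes.indFun_apply_one] at h5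
      exact h5)
  exact ⟨h3, h4⟩

variable {K : Type} [Field K] [Fintype K] {q : ℕ} {φ : K →+* K}

/-- `w ∉ P` -/
theorem not_mem_of_dat {G : Type*} [Group G] {P U Lv C : Subgroup G} {w : G} (D : Dat P U Lv C w) {u : G}
    (hu : u ∈ U) (hu1 : u ≠ 1) : w ∉ P := by
  intro hw
  apply hu1
  refine D.opp u hu ?_
  exact mul_mem (mul_mem hw (D.U_le hu)) (inv_mem hw)

/-- the order of the unipotent radical is a power of the characteristic -/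
theorem card_VV {r : ℕ} [Fact r.Prime] [CharP K r] (hK : Fintype.card K = q ^ 3) (hφ : ∀ x, φ x = x ^ q) :
    ∃ m : ℕ, Nat.card ↥(VV φ q) = r ^ m := by
  have : Finite CoxeterMatrix.G₂.Group := Nodes.RGDChev.finite_W Cfsg.Agent.BiChar.GTwo.isType cs
  have Rg := Nodes.RGDTwD4.rgd (K := K) cs hK hφ r
  exact ((RGD.isPGroup_Upos Rg).to_le (VJ_le_U ({0} : Set (Fin 2)))).exists_card_eq

/-- **The core of the row `³D₄(q)`, `3 ∣ q + 1`.** -/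
theorem core (hq : IsPrimePow q) (hK : Fintype.card K = q ^ 3)
    (hφ : ∀ x, φ x = x ^ q) (h3 : q % 3 = 2) :
    ∃ (f : ↥(PP φ q) →* Matrix.ProjGenLinGroup (Fin 2) (Fx φ ((Nodes.RGDTwNode.D4.rest 0).length + 1)))
      (ρ : IrrCharacter ↥(PP φ q)),
      Function.Surjective f ∧
      (∀ x : ↥(PP φ q), (x : ↥(twistedD4 K q)) ∈ VV φ q → f x = 1) ∧
      (∀ x : ↥(PP φ q), (x : ↥(twistedD4 K q)) ∈ LL φ q →
        (f x = 1 ↔ ∀ m ∈ MM φ q, (x : ↥(twistedD4 K q)) * m = m * x)) ∧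
      (∀ x x' : ↥(PP φ q), f x = f x' → (ρ : ↥(PP φ q) → ℂ) x = (ρ : ↥(PP φ q) → ℂ) x') ∧
      (∀ τ : ↥(PP φ q) ≃* ↥(PP φ q), (∀ x, f x = 1 ↔ f (τ x) = 1) →
        (∀ x, Nat.card (fixedBy (↥(PP φ q) ⧸ BP φ q) (τ x)) = Nat.card (fixedBy (↥(PP φ q) ⧸ BP φ q) x)) →
        ∀ x, (ρ : ↥(PP φ q) → ℂ) (τ x) = (ρ : ↥(PP φ q) → ℂ) x) ∧
      ∀ M : Ideal AlgInt, IsPModular 3 M → ∃ χ χ' : IrrCharacter ↥(twistedD4 K q), χ ≠ χ' ∧
        χ ∈ principalBlock M ↥(twistedD4 K q) ∧ vd 3 (χ : ↥(twistedD4 K q) → ℂ) = 1 ∧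
        charDegree (χ : ↥(twistedD4 K q) → ℂ) ≠ charDegree (χ' : ↥(twistedD4 K q) → ℂ) ∧
        ∀ [Fintype ↥(twistedD4 K q)], indFun (PP φ q) (ρ : ↥(PP φ q) → ℂ) =
          (χ : ↥(twistedD4 K q) → ℂ) + (χ' : ↥(twistedD4 K q) → ℂ) := by
  classical
  obtain ⟨r, hch⟩ := CharP.exists K
  have hrp : r.Prime := CharP.char_is_prime K r
  have : Fact r.Prime := ⟨hrp⟩
  have hp3 : Fact (Nat.Prime 3) := ⟨Nat.prime_three⟩
  have hle := D4Fixed.twisted_le_fix hK hφ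
  have : Finite CoxeterMatrix.G₂.Group := Nodes.RGDChev.finite_W Cfsg.Agent.BiChar.GTwo.isType cs
  have Rg := Nodes.RGDTwD4.rgd (K := K) cs hK hφ r
  have iY : Fintype ↥(twistedD4 K q) := Fintype.ofFinite _
  have iP : Fintype ↥(PP φ q) := Fintype.ofFinite _
  obtain ⟨e, -, hqe⟩ : ∃ f, f ≠ 0 ∧ q = r ^ f := by
    obtain ⟨p', k, hp', hk, e⟩ := id hq
    obtain ⟨m, -, hm⟩ := FiniteField.card K r
    have h1 : p' = r := by
      have h2 : p' ∣ r ^ (m : ℕ) := by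
        rw [← hm, hK, ← e]
        exact dvd_pow (dvd_pow_self p' hk.ne') (by norm_num)
      exact (Nat.prime_dvd_prime_iff_eq hp'.nat_prime hrp).1 (hp'.nat_prime.dvd_of_dvd_pow h2)
    exact ⟨k, hk.ne', by rw [← e, h1]⟩
  obtain ⟨f, ρ, hfs, hfV, hfC, hρf, hρ1, hρc, hρSt, hρB, hρinv⟩ := exists_rho hq hK hφ h3
  refine ⟨f, ρ, hfs, hfV, hfC, hρf, hρinv, fun M hM => ?_⟩
  have hρV : ∀ v (hv : v ∈ VV φ q), (ρ : ↥(PP φ q) → ℂ) ⟨v, VJ_le_PJ hv⟩ = (ρ : ↥(PP φ q) → ℂ) 1 :=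
    fun v hv => hρf _ _ (by rw [hfV ⟨v, VJ_le_PJ hv⟩ hv, map_one])
  have hρC : ∀ z (hz : z ∈ CC φ q), (ρ : ↥(PP φ q) → ℂ) ⟨z, T_le_PJ _ (CT_le hz)⟩ = (ρ : ↥(PP φ q) → ℂ) 1 :=
    fun z hz => hρf _ _ (by
      rw [map_one]
      exact (hfC ⟨z, T_le_PJ _ (CT_le hz)⟩ (T_le_LJ (CT_le hz))).2 fun m hm => CT_comm hz hm)
  obtain ⟨w, hD, -, hC⟩ := exists_dat (K := K) (q := q) (φ := φ) hK hφ
  have hChr := hC (ρ : ↥(PP φ q) → ℂ) ρ.2 hρV hρC hρc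
  obtain ⟨χ, χ', hne, hχB, hdeg, hind⟩ := pair_B0 hq hK hφ hM ρ (hρB M hM) hρ1 f hρf
    (fun v hv => hfV ⟨v, VJ_le_PJ hv⟩ hv) (fun l hl hm => (hfC ⟨l, LJ_le_PJ hl⟩ hl).2 hm) hρc
  have hind' := @hind iY
  -- `w ∉ P`
  have hwP : w ∉ PP φ q := by
    obtain ⟨u, hu, hu1⟩ := exists_ne_one Rg 1
    refine not_mem_of_dat hD (u := u) (RGD.le_Sup ?_ hu) hu1
    refine ⟨isRoot_sr _ _ 1, sr_nonneg 1, 1, by simp, by rw [sr_self]; norm_num⟩
  -- the ratio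
  obtain ⟨m, hm⟩ := card_VV (r := r) hK hφ
  obtain ⟨h1, h2⟩ := ratio_pair hD hwP ρ hChr hne hind
  rw [hm] at h1 h2
  have hd0 : charDegree (χ : ↥(twistedD4 K q) → ℂ) ≠ 0 := (Cfsg.Agent.Blocks.Basic.charDegree_pos χ.2).ne'
  have hd0' : charDegree (χ' : ↥(twistedD4 K q) → ℂ) ≠ 0 := (Cfsg.Agent.Blocks.Basic.charDegree_pos χ'.2).ne'
  -- the small constituent
  have hq2 : q ^ 2 ≤ q ^ 4 := Nat.pow_le_pow_right hq.pos (by norm_num)
  obtain ⟨Z, hZ, hZd⟩ := Cfsg.Agent.H377.TD.small_constituent (p := r) (φ := φ) hφ hq hK (P := q ^ 4 - q ^ 2 + 1)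
    (by omega) ρ.2 hρSt
  have hZin : Z = χ ∨ Z = χ' := by
    by_contra hcon
    push Not at hcon
    apply hZ
    have e1 : classInner (indFun (PP φ q) (ρ : ↥(PP φ q) → ℂ)) (Z : ↥(twistedD4 K q) → ℂ) = 0 := by
      rw [hind', Core.classInner_add_left, Core.classInner_irr_ne χ.2 Z.2 (fun h => hcon.1 (Subtype.ext h.symm)),
        Core.classInner_irr_ne χ'.2 Z.2 (fun h => hcon.2 (Subtype.ext h.symm)), add_zero]
    rw [classInner_indFun _ _ _ (Core.isIrr_isClassFunction Z.2)] at e1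
    rw [← Core.classInner_conj_symm, e1, map_zero]
  obtain ⟨a1, a2, a3⟩ := arith hrp hqe h3 hdeg hd0 hd0' h1 h2 (by
    rcases hZin with rfl | rfl
    · exact Or.inl hZd
    · exact Or.inr hZd)
  exact ⟨χ, χ', hne, hχB, a1, a3, hind⟩

end Cfsg.Agent.H420.HT.D4Core
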