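import Cfsg.Agent.H628.Sq.Par
import Cfsg.Agent.H115.HC.TwoReg
import Cfsg.Agent.H115.HC.TwoHecke
import Cfsg.Agent.S0148

/-!
# The two constituents of the character induced by a cuspidal character of the line parabolic (helper420, S4933)

`R : RGD cs h p T n X` of type `G₂` (any root groups), `P = PJ {0}`, `ψ` an irreducible character of `P`, trivial on
`V_J` and on the centraliser in `T` of the root groups `X (±sr 0)`, whose sum over `X (sr 0)` vanishes; the root groups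
of the root orthogonal to `sr 0` centralise `M_J`. Then `Ind ψ` is the sum of two different irreducible characters.

The general lemmas `twist_le_one`, `norm_le_card`, `conj_mem_LJ_iff` are copies of helper40's ones (`H40/PV/Many`).
-/

set_option autoImplicit false
set_option linter.unusedSectionVars false

open scoped ComplexConjugate
open Cfsg

namespace Cfsg.Agent.H420.HT.D4

open Cfsg.Agent.OddOrderCharacters.Clifford Cfsg.Agent.Characters Cfsg.Agent.H53.HC Cfsg.Agent.H628.Sq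

section abstract_

variable {G : Type*} [Group G]

/-- the Mackey term at an element normalising `L` -/
theorem twist_le_one [Fintype G] (P R L : Subgroup G) [Fintype P] (hRP : R ≤ P) (hLP : L ≤ P)
    (hPL : ∀ g ∈ P, ∃ l ∈ L, ∃ r ∈ R, g = l * r) (y : G)
    (hy : ∀ l, l ∈ L ↔ y⁻¹ * l * y ∈ L) {ψ : P → ℂ} (hψ : IsIrrCharacter P ψ)
    (hR : ∀ g r : P, (r : G) ∈ R → ψ (g * r) = ψ g) :
    ‖twist P ψ ψ y‖ ≤ 1 * Nat.card (dsub P y) := by
  classical
  have hch := Core.isIrr_isCharacter hψ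
  set t : G → ℂ := extendByZero P ψ with ht
  have tP : ∀ g (hg : g ∈ P), t g = ψ ⟨g, hg⟩ := fun g hg => ext_apply_mem P ψ g hg
  have tr : ∀ g r, r ∈ R → t (g * r) = t g := by
    intro g r hr
    by_cases hg : g ∈ P
    · rw [tP g hg, tP _ (mul_mem hg (hRP hr))]
      exact hR ⟨g, hg⟩ ⟨r, hRP hr⟩ hr
    · rw [ht, ext_apply_not_mem P ψ g hg, ext_apply_not_mem P ψ _ fun h => hg ?_]
      have := mul_mem h (inv_mem (hRP hr))
      rwa [mul_inv_cancel_right] at this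
  have hnP : ∑ g : P, ‖t g‖ ^ 2 = Nat.card P := by
    have h1 := Core.classInner_irr_self hψ
    rw [classInner_apply, inv_mul_eq_iff_eq_mul₀ card_ne_zero', mul_one] at h1
    have h2 : ((∑ g : P, ‖t g‖ ^ 2 : ℝ) : ℂ) = ((Nat.card P : ℝ) : ℂ) := by
      rw [Complex.ofReal_natCast, ← h1]
      push_cast
      refine Finset.sum_congr rfl fun g _ => ?_
      rw [tP g g.2, Complex.mul_conj, Complex.normSq_eq_norm_sq]
      push_cast
      rfl
    exact_mod_cast h2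
  have : Fintype L := Fintype.ofFinite L
  have hnL : ∑ l : L, ‖t l‖ ^ 2 = Nat.card L := by
    have h1 := Par.sum_P (P := P) (L := L) (R := R) (fun g => ‖t g‖ ^ 2) hLP (fun g r hr => by
      show ‖t (g * r)‖ ^ 2 = _
      rw [tr g r hr]) hPL
    rw [hnP] at h1
    have h2 : (Nat.card P : ℝ) ≠ 0 := by exact_mod_cast Nat.card_pos.ne'
    have h3 : (Nat.card P : ℝ) * ∑ l : L, ‖t l‖ ^ 2 = Nat.card P * Nat.card L := by
      rw [h1, mul_comm]
    exact mul_left_cancel₀ h2 h3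
  refine NormLe.twist_le_of_sub P hch hch y L hLP (fun l hl => hLP ((hy l).1 hl)) ?_
  refine (norm_sum_le _ _).trans ?_
  have h2 : ∑ l : L, ‖t (y⁻¹ * l * y)‖ ^ 2 = ∑ l : L, ‖t l‖ ^ 2 := by
    refine Fintype.sum_equiv
      { toFun := fun m : L => (⟨y⁻¹ * m * y, (hy m).1 m.2⟩ : L)
        invFun := fun m : L => (⟨y * m * y⁻¹, (hy _).2 (by
          have : y⁻¹ * (y * (m : G) * y⁻¹) * y = m := by group
          rw [this]; exact m.2)⟩ : L)
        left_inv := fun m => Subtype.ext (by simp; group)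
        right_inv := fun m => Subtype.ext (by simp; group) } _ _ fun m => rfl
  calc ∑ l : L, ‖ψ ⟨l, hLP l.2⟩ * conj (ψ ⟨y⁻¹ * l * y, hLP ((hy l).1 l.2)⟩)‖ =
      ∑ l : L, ‖t l‖ * ‖t (y⁻¹ * l * y)‖ := by
        refine Finset.sum_congr rfl fun l _ => ?_
        rw [norm_mul, RCLike.norm_conj, tP l (hLP l.2), tP _ (hLP ((hy l).1 l.2))]
    _ ≤ ∑ l : L, (‖t l‖ ^ 2 + ‖t (y⁻¹ * l * y)‖ ^ 2) / 2 := Finset.sum_le_sum fun l _ => Par.mul_le_half
    _ = 1 * Nat.card L := by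
        rw [← Finset.sum_div, Finset.sum_add_distrib, h2, hnL]
        ring

/-- **An upper bound for the norm.** -/
theorem norm_le_card [Fintype G] (P R L : Subgroup G) [Fintype P] (hRP : R ≤ P) (hLP : L ≤ P)
    (hPL : ∀ g ∈ P, ∃ l ∈ L, ∃ r ∈ R, g = l * r) {ι : Type*} [Fintype ι] (y : ι → G)
    (hy : ∀ i l, l ∈ L ↔ (y i)⁻¹ * l * y i ∈ L) {ψ : P → ℂ} (hψ : IsIrrCharacter P ψ)
    (hR : ∀ g r : P, (r : G) ∈ R → ψ (g * r) = ψ g)
    (hd : ∀ x, (∃ i, ∃ a ∈ P, ∃ b ∈ P, x = a * y i * b) ∨ twist P ψ ψ x = 0) :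
    ‖classInner (indFun P ψ) (indFun P ψ)‖ ≤ Fintype.card ι := by
  classical
  have hcl := Core.isIrr_isClassFunction hψ
  have key := NormLe.norm_le P hcl (ι := ι ⊕ {x : G // twist P ψ ψ x = 0}) (Sum.elim y fun x => x.1)
    (Sum.elim (fun _ => 1) fun _ => 0) ?_ ?_
  · refine key.trans (le_of_eq ?_)
    rw [Fintype.sum_sum_type]
    simp
  · intro x
    rcases hd x with ⟨i, a, ha, b, hb, e⟩ | h0
    · exact ⟨Sum.inl i, a, ha, b, hb, e⟩
    · exact ⟨Sum.inr ⟨x, h0⟩, 1, one_mem _, 1, one_mem _, by simp⟩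
  · rintro (i | ⟨x, hx⟩)
    · exact twist_le_one P R L hRP hLP hPL (y i) (hy i) hψ hR
    · simp [hx]

/-- a character of norm two -/
theorem exists_two [Fintype G] {Θ : G → ℂ} (hΘc : IsCharacter G Θ) (hn : classInner Θ Θ = 2) :
    ∃ χ χ' : IrrCharacter G, χ ≠ χ' ∧ Θ = (χ : G → ℂ) + (χ' : G → ℂ) := by
  classical
  obtain ⟨χ, hχ, hne, -⟩ := Cfsg.Agent.H53.HC.exists_common hΘc hΘc (by
    rw [hn]
    exact two_ne_zero)
  obtain ⟨m, hm⟩ := Core.classInner_isNat hΘc (Core.isIrr_isCharacter hχ)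
  have hDc := isCharacter_sub_irr hΘc hχ hne
  have hcc : classInner χ Θ = (m : ℂ) := by
    rw [← Core.classInner_conj_symm, hm, Complex.conj_natCast]
  obtain ⟨k, hk⟩ := Core.classInner_isNat hDc hDc
  have hD : classInner (Θ - χ) (Θ - χ) = 3 - 2 * (m : ℂ) := by
    rw [Core.classInner_sub_left, Core.classInner_sub_right, Core.classInner_sub_right, hn, hm, hcc,
      Core.classInner_irr_self hχ]
    ring
  have hm1 : m = 1 := by
    have h0 : m ≠ 0 := by
      rintro rfl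
      exact hne (by rw [hm, Nat.cast_zero])
    rw [hk] at hD
    have h4 : ((k + 2 * m : ℕ) : ℂ) = ((3 : ℕ) : ℂ) := by
      push_cast
      linear_combination hD
    have h5 : k + 2 * m = 3 := by exact_mod_cast h4
    omega
  subst hm1
  have hi2 : IsIrrCharacter G (Θ - χ) := by
    rw [Core.isIrr_iff_classInner_self hDc, hD]
    norm_num
  refine ⟨⟨χ, hχ⟩, ⟨Θ - χ, hi2⟩, ?_, ?_⟩
  · intro he
    have he' : χ = Θ - χ := congrArg (fun x : IrrCharacter G => (x : G → ℂ)) he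
    have h1 : classInner Θ χ = 2 := by
      have h2 : Θ = χ + χ := by
        conv_rhs => rw [he']
        funext x
        have := congrFun he' x
        simp only [Pi.sub_apply, Pi.add_apply] at this ⊢
        linear_combination 2 * this - this
      rw [h2, Core.classInner_add_left, Core.classInner_irr_self hχ]
      norm_num
    rw [hm] at h1
    norm_num at h1
  · funext x
    simp

end abstract_

section levi

open CoxeterSystem Cfsg.Agent.ChevalleyStructure.CoxeterGeom Cfsg.Agent.Tits.Roots Cfsg.Agent.Tits.Core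
  Cfsg.Agent.Tits.Exchange Cfsg.Agent.Nodes.Reps Cfsg.Agent.Nodes.BNOf Cfsg.Agent.Nodes.StabComb
  Cfsg.Agent.Nodes.Bruhat Cfsg.Agent.Nodes.OppDec Cfsg.Agent.Nodes.LeviDec

variable {I W Y : Type*} [Fintype I] [DecidableEq I] [Group W] [Group Y] {M : CoxeterMatrix I}
  {cs : CoxeterSystem M W} {A : I → I → ℤ} {h : IsCartan M A} {p : ℕ} {T : Subgroup Y} {n : I → Y}
  {X : (I → ℤ) → Subgroup Y}

/-- an element permuting the simple roots of `J` preserves the roots of `J` -/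
theorem perm_rootsJ {J : Set I} {w : W} (hw : ∀ i ∈ J, ∃ k ∈ J, rep cs h w (sr i) = sr k) {x : I → ℤ}
    (hx : x ∈ RootsJ cs h J) : rep cs h w x ∈ RootsJ cs h J := by
  refine ⟨hx.1.act w, fun k hk => ?_⟩
  rw [eq_sum_sr x, map_sum, Finset.sum_apply]
  refine Finset.sum_eq_zero fun j _ => ?_
  rw [map_smul, Pi.smul_apply]
  by_cases hj : j ∈ J
  · obtain ⟨m, hm, e⟩ := hw j hj
    rw [e, sr_ne (by rintro rfl; exact hk hm), smul_zero]
  · rw [hx.2 j hj, zero_smul]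

variable (R : RGD cs h p T n X)

include R

theorem conj_mem_LJ {J : Set I} {w : W} {g : Y} (hg : Rp cs R.nsys w g)
    (hw : ∀ i ∈ J, ∃ k ∈ J, rep cs h w (sr i) = sr k) {l : Y} (hl : l ∈ LJ cs h T X J) :
    g * l * g⁻¹ ∈ LJ cs h T X J := by
  have h1 : LJ cs h T X J ≤ (LJ cs h T X J).comap (MulAut.conj g).toMonoidHom := by
    refine sup_le (fun t ht => ?_) (RGD.Sup_le fun x hx u hu => ?_)
    · rw [Subgroup.mem_comap]
      refine T_le_LJ ?_
      have h2 := mem_normalizer_iff_cj.1 hg.mem_normalizer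
      have h3 : g * t * g⁻¹ ∈ cj g T := conj_mem_cj.2 ht
      rwa [h2] at h3
    · rw [Subgroup.mem_comap]
      exact X_le_LJ (perm_rootsJ hw hx) (R.conj_mem hg hx.1 hu)
  exact h1 hl

theorem conj_mem_LJ_iff [Finite W] {J : Set I} {w : W} {g : Y} (hg : Rp cs R.nsys w g) (hw : Perm cs h J w) {l : Y} :
    l ∈ LJ cs h T X J ↔ g⁻¹ * l * g ∈ LJ cs h T X J := by
  constructor
  · intro hl
    have := conj_mem_LJ R hg.inv hw.1 hl
    rwa [inv_inv] at this
  · intro hl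
    have := conj_mem_LJ R hg hw.2 hl
    have e : g * (g⁻¹ * l * g) * g⁻¹ = l := by group
    rwa [e] at this

end levi

section gtwo

open CoxeterSystem Cfsg.Agent.ChevalleyStructure.CoxeterGeom Cfsg.Agent.Tits.Roots Cfsg.Agent.Tits.Core
  Cfsg.Agent.Tits.Exchange Cfsg.Agent.Nodes.Reps Cfsg.Agent.Nodes.BNOf Cfsg.Agent.Nodes.StabComb
  Cfsg.Agent.Nodes.Bruhat Cfsg.Agent.Nodes.OppDec Cfsg.Agent.Nodes.LeviDec Cfsg.Agent.H115.HC.Two
  Cfsg.Agent.H115.HC Cfsg.Agent.LieRecognition.RankOneAbstract Cfsg.Agent.Characters.Core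

variable {W Y : Type*} [Group W] [Group Y] {M : CoxeterMatrix (Fin 2)}
  {cs : CoxeterSystem M W} {A : Fin 2 → Fin 2 → ℤ} {h : IsCartan M A} {p : ℕ} {T : Subgroup Y} {n : Fin 2 → Y}
  {X : (Fin 2 → ℤ) → Subgroup Y}

variable (R : RGD cs h p T n X)

include R

/-- a representative of the reflection orthogonal to `sr 0` centralising `M_J` -/
theorem exists_g {y : Fin 2 → ℤ}
    (hy : y = rep cs h (cs.simple 1 * cs.simple 0) (sr 1))
    (hC : ∀ m ∈ MJ cs h X {0}, ∀ v ∈ X y, m * v = v * m)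
    (hC' : ∀ m ∈ MJ cs h X {0}, ∀ v ∈ X (-y), m * v = v * m) :
    ∃ g, Rp cs R.nsys (vv cs) g ∧ ∀ m ∈ MJ cs h X {0}, g * m = m * g := by
  have hm : Rp cs R.nsys (cs.simple 1 * cs.simple 0) (n 1 * n 0) :=
    (rp_simple cs R.nsys 1).mul (rp_simple cs R.nsys 0)
  obtain ⟨k₁, hk₁, hk₁r⟩ := exists_rp_mem R 1
  have hg1 : Rp cs R.nsys (vv cs) ((n 1 * n 0) * k₁ * (n 1 * n 0)⁻¹) := (hm.mul hk₁r).mul hm.inv
  refine ⟨_, hg1, ?_⟩
  intro m hmM
  have h2 : MJ cs h X {1} ≤ Subgroup.centralizer {(n 1 * n 0)⁻¹ * m * (n 1 * n 0)} := by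
    rw [MJ_single]
    refine sup_le ?_ ?_
    · intro u hu
      rw [Subgroup.mem_centralizer_singleton_iff]
      have h3 := hC m hmM _ (by
        rw [hy]
        exact R.conj_mem hm (isRoot_sr cs h 1) hu)
      calc u * ((n 1 * n 0)⁻¹ * m * (n 1 * n 0)) =
            (n 1 * n 0)⁻¹ * (((n 1 * n 0) * u * (n 1 * n 0)⁻¹) * m) * (n 1 * n 0) := by group
        _ = (n 1 * n 0)⁻¹ * (m * ((n 1 * n 0) * u * (n 1 * n 0)⁻¹)) * (n 1 * n 0) := by rw [h3]
        _ = _ := by group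
    · intro u hu
      rw [Subgroup.mem_centralizer_singleton_iff]
      have h4 := R.conj_mem hm (isRoot_sr cs h 1).neg hu
      rw [map_neg, ← hy] at h4
      have h3 := hC' m hmM _ h4
      calc u * ((n 1 * n 0)⁻¹ * m * (n 1 * n 0)) =
            (n 1 * n 0)⁻¹ * (((n 1 * n 0) * u * (n 1 * n 0)⁻¹) * m) * (n 1 * n 0) := by group
        _ = (n 1 * n 0)⁻¹ * (m * ((n 1 * n 0) * u * (n 1 * n 0)⁻¹)) * (n 1 * n 0) := by rw [h3]
        _ = _ := by group
  have h3 := Subgroup.mem_centralizer_singleton_iff.1 (h2 hk₁)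
  calc ((n 1 * n 0) * k₁ * (n 1 * n 0)⁻¹) * m =
        (n 1 * n 0) * (k₁ * ((n 1 * n 0)⁻¹ * m * (n 1 * n 0))) * (n 1 * n 0)⁻¹ := by group
    _ = (n 1 * n 0) * (((n 1 * n 0)⁻¹ * m * (n 1 * n 0)) * k₁) * (n 1 * n 0)⁻¹ := by rw [h3]
    _ = _ := by group

/-- **The norm of the induced character is two.** -/
theorem inner_two [Finite W] [Fintype Y] (hG : GG cs h T X = ⊤) (hA : A 0 1 * A 1 0 = 3) {y : Fin 2 → ℤ}
    (hy : y = rep cs h (cs.simple 1 * cs.simple 0) (sr 1))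
    (hC : ∀ m ∈ MJ cs h X {0}, ∀ v ∈ X y, m * v = v * m)
    (hC' : ∀ m ∈ MJ cs h X {0}, ∀ v ∈ X (-y), m * v = v * m)
    {ψ : ↥(PJ cs h T X {0}) → ℂ} (hψ : IsIrrCharacter _ ψ)
    (hV : ∀ (v : Y) (hv : v ∈ VJ cs h X {0}), ψ ⟨v, VJ_le_PJ hv⟩ = ψ 1)
    (hz : ∀ z (hz : z ∈ CT T X 0), ψ ⟨z, T_le_PJ _ (CT_le hz)⟩ = ψ 1)
    (hc : ∀ [Fintype (X (sr 0))], ∑ u : X (sr 0), ψ ⟨u, LJ_le_PJ (X_le_LJ_single 0 u.2)⟩ = 0) :
    classInner (indFun (PJ cs h T X {0}) ψ) (indFun (PJ cs h T X {0}) ψ) = 2 := by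
  classical
  have : Fintype ↥(PJ cs h T X {0}) := Fintype.ofFinite _
  obtain ⟨g, hg, hgM⟩ := exists_g R hy hC hC'
  have hch := isIrr_isCharacter hψ
  have hcl := isIrr_isClassFunction hψ
  have hgP : g ∉ PJ cs h T X {0} := by
    rw [cell_mem_PJ_iff R (cell_of_rp hg)]
    exact vv_not_mem hA h
  have hvv : rep cs h (vv cs) (sr 0) = sr 0 := by
    rw [rep_vv hA, sr_zero_eq]
    exact vec_ext (by simp) (by simp)
  have hvi : (vv cs)⁻¹ = vv cs := by
    unfold vv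
    simp only [mul_inv_rev, cs.inv_simple, mul_assoc]
  have hne := classInner_ne_one R 0 hψ hz hg hgM (fun x hx => vv_notJ hA hx) hgP
  have hperm : Perm cs h {0} (vv cs) := by
    constructor
    · intro i hi
      rw [Set.mem_singleton_iff] at hi
      subst hi
      exact ⟨0, rfl, by rw [hvi, hvv]⟩
    · intro i hi
      rw [Set.mem_singleton_iff] at hi
      subst hi
      exact ⟨0, rfl, hvv⟩
  have hLg : ∀ l, l ∈ LJ cs h T X {0} ↔ g⁻¹ * l * g ∈ LJ cs h T X {0} := fun l => conj_mem_LJ_iff R hg hperm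
  have hle := norm_le_card (PJ cs h T X {0}) (VJ cs h X {0}) (LJ cs h T X {0}) VJ_le_PJ LJ_le_PJ
    (fun x hx => by
      obtain ⟨l, hl, v, hv, e⟩ := (mem_PJ R).1 hx
      exact ⟨l, hl, v, hv, e⟩) (ι := Fin 2) ![1, g] (by
      intro i l
      fin_cases i
      · simp
      · exact hLg l) hψ (by
      intro x r hr
      exact Cfsg.Agent.H597.Base.apply_mul_of_ker hch (hV _ hr) x) (by
      intro x
      by_cases hx : x ∈ PJ cs h T X {0}
      · exact Or.inl ⟨0, x, hx, 1, one_mem _, by simp⟩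
      obtain ⟨a, ha, b, hb, w, k, hk, e, hwJ, hw1, hw2⟩ := exists_min_rep R hG {0} hx
      rcases perm_or hw1 hw2 with hp | ⟨i, hi, hrad⟩
      · obtain ⟨j, hj, hj'⟩ := hp.2 0 rfl
        rw [Set.mem_singleton_iff] at hj
        subst hj
        have hwv := eq_vv hA hwJ hj'
        subst hwv
        have ht := hg.unique hk
        refine Or.inl ⟨1, a, ha, g⁻¹ * k * b, mul_mem (T_le_PJ _ ht) hb, ?_⟩
        rw [e]
        show a * k * b = a * g * (g⁻¹ * k * b)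
        group
      · right
        rw [e, twist_mul _ hcl hcl ha hb]
        have : Fintype (X (sr 0)) := Fintype.ofFinite _
        rw [Set.mem_singleton_iff] at hi
        subst hi
        have hconj : ∀ u ∈ X (sr 0), k⁻¹ * u * k ∈ VJ cs h X {0} := by
          intro u hu
          have h1 : (sr 0 : Fin 2 → ℤ) ∈ PosRad cs h {0} 0 :=
            ⟨sr_mem_PosJ (Set.mem_singleton 0), by rw [sr_self]; norm_num⟩
          exact RGD.le_Sup (hrad _ h1) (R.conj_mem' hk (isRoot_sr cs h 0) hu)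
        refine twist_eq_zero_of_sub (PJ cs h T X {0}) hch hch k (X (sr 0))
          (le_trans (X_le_LJ_single 0) LJ_le_PJ) (fun l hl => VJ_le_PJ (hconj l hl)) ?_
        have h3 : ∀ l : X (sr 0), ψ ⟨l, LJ_le_PJ (X_le_LJ_single 0 l.2)⟩ *
            conj (ψ ⟨k⁻¹ * l * k, VJ_le_PJ (hconj l l.2)⟩) = ψ ⟨l, LJ_le_PJ (X_le_LJ_single 0 l.2)⟩ * conj (ψ 1) := by
          intro l
          rw [hV _ (hconj l l.2)]
        rw [Finset.sum_congr rfl fun l _ => h3 l, ← Finset.sum_mul, hc, zero_mul])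
  have hΘc : IsCharacter Y (indFun (PJ cs h T X {0}) ψ) := Cfsg.Agent.S0148.result _ _ hch
  obtain ⟨m, hm⟩ := classInner_isNat hΘc hΘc
  rw [hm] at hle hne ⊢
  rw [Complex.norm_natCast, Fintype.card_fin] at hle
  have h1 : m ≤ 2 := by exact_mod_cast hle
  have h2 : m ≠ 1 := by
    rintro rfl
    exact hne (by norm_num)
  have h3 : m ≠ 0 := by
    rintro rfl
    rw [Nat.cast_zero] at hm
    have h4 := classInner_self_eq_zero hm
    have h5 := congrFun h4 1
    rw [Cfsg.Agent.H53.HC.indFun_one, Pi.zero_apply, mul_eq_zero] at h5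
    rcases h5 with h5 | h5
    · exact Subgroup.index_ne_zero_of_finite (by exact_mod_cast h5)
    · exact isIrr_apply_one_ne_zero hψ h5
  have h6 : m = 2 := by omega
  rw [h6]
  norm_num

/-- **The two constituents.** -/
theorem exists_pair_cusp [Finite W] [Fintype Y] (hG : GG cs h T X = ⊤) (hA : A 0 1 * A 1 0 = 3) {y : Fin 2 → ℤ}
    (hy : y = rep cs h (cs.simple 1 * cs.simple 0) (sr 1))
    (hC : ∀ m ∈ MJ cs h X {0}, ∀ v ∈ X y, m * v = v * m)
    (hC' : ∀ m ∈ MJ cs h X {0}, ∀ v ∈ X (-y), m * v = v * m)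
    {ψ : ↥(PJ cs h T X {0}) → ℂ} (hψ : IsIrrCharacter _ ψ)
    (hV : ∀ (v : Y) (hv : v ∈ VJ cs h X {0}), ψ ⟨v, VJ_le_PJ hv⟩ = ψ 1)
    (hz : ∀ z (hz : z ∈ CT T X 0), ψ ⟨z, T_le_PJ _ (CT_le hz)⟩ = ψ 1)
    (hc : ∀ [Fintype (X (sr 0))], ∑ u : X (sr 0), ψ ⟨u, LJ_le_PJ (X_le_LJ_single 0 u.2)⟩ = 0) :
    ∃ χ χ' : IrrCharacter Y, χ ≠ χ' ∧ indFun (PJ cs h T X {0}) ψ = (χ : Y → ℂ) + (χ' : Y → ℂ) :=
  exists_two (Cfsg.Agent.S0148.result _ _ (isIrr_isCharacter hψ)) (inner_two R hG hA hy hC hC' hψ hV hz hc)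

end gtwo

end Cfsg.Agent.H420.HT.D4
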