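import Cfsg.Agent.H420.HT.D4Mk
import Cfsg.Agent.H912.HT.Dat
import Cfsg.Agent.H362.HT.OverAny

/-!
# S4933, `³D₄(q)`, `3 ∣ q + 1`: the norm of the induced character in helper912's abstract situation (helper420)

* `norm_le_two` : `[Ind ρ, Ind ρ] ≤ 2`;
* `inner_zero_or_one` (D1) : `[χ|P, ρ] ∈ {0, 1}`;
* `exists_block` (D2) : a constituent of `Ind ρ` in the principal block.
-/

set_option autoImplicit false
set_option linter.unusedSectionVars false

open scoped ComplexConjugate
open Cfsg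

namespace Cfsg.Agent.H420.HT.Dat1

open Cfsg.Agent.OddOrderCharacters.Clifford Cfsg.Agent.Characters Cfsg.Agent.H53.HC Cfsg.Agent.H912.HT
  Cfsg.Agent.H420.HT.D4

universe u

variable {G : Type u} [Group G] {P U Lv C : Subgroup G} {w : G} {ρ : P → ℂ}

theorem conj_mem (D : Dat P U Lv C w) {l : G} (hl : l ∈ Lv) : w * l * w⁻¹ ∈ Lv := by
  have h1 := mul_mem (D.C_le (D.comm l hl)) hl
  rwa [inv_mul_cancel_right] at h1

theorem conj_mem_iff (D : Dat P U Lv C w) (l : G) : l ∈ Lv ↔ w⁻¹ * l * w ∈ Lv := by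
  constructor
  · intro hl
    have h1 := conj_mem D hl
    have h2 : w⁻¹ * l * w = (w * w)⁻¹ * (w * l * w⁻¹) * (w * w) := by group
    rw [h2]
    exact mul_mem (mul_mem (inv_mem (D.C_le D.sq)) h1) (D.C_le D.sq)
  · intro hl
    have h1 := conj_mem D hl
    have h2 : w * (w⁻¹ * l * w) * w⁻¹ = l := by group
    rwa [h2] at h1

theorem norm_le_two [Fintype G] (D : Dat P U Lv C w) (hρ : Chr P U C w ρ) :
    ‖classInner (indFun P ρ) (indFun P ρ)‖ ≤ 2 := by
  classical
  have : Fintype P := Fintype.ofFinite _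
  have hch := Core.isIrr_isCharacter hρ.irr
  have hcl := Core.isIrr_isClassFunction hρ.irr
  have hU : ∀ x r : P, (r : G) ∈ U → ρ (x * r) = ρ x := by
    intro x r hr
    have h1 := hρ.kerU (x * r * x⁻¹) x (D.norm _ x.2 _ hr)
    rwa [inv_mul_cancel_right] at h1
  have key := norm_le_card P U Lv D.U_le D.L_le (fun g hg => by
      obtain ⟨u, hu, l, hl, e⟩ := D.prod g⁻¹ (inv_mem hg)
      refine ⟨l⁻¹, inv_mem hl, u⁻¹, inv_mem hu, ?_⟩
      rw [← inv_inv g, e, mul_inv_rev]) (ι := Fin 2) ![1, w] (by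
      intro i l
      fin_cases i
      · simp
      · exact conj_mem_iff D l) hρ.irr hU (by
      intro x
      by_cases hx : x ∈ P
      · exact Or.inl ⟨0, x, hx, 1, one_mem _, by simp⟩
      by_cases hb : Big P w x
      · obtain ⟨a, ha, b, hb, e⟩ := hb
        exact Or.inl ⟨1, a, ha, b, hb, e⟩
      right
      obtain ⟨E, hE, hsum⟩ := hρ.cusp x hx hb
      have hE' : ∀ l ∈ E.map P.subtype, x⁻¹ * l * x ∈ U := by
        rintro _ ⟨d, hd, rfl⟩
        exact hE d hd
      have hEP : E.map P.subtype ≤ P := Subgroup.map_subtype_le _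
      have : Fintype (E.map P.subtype) := Fintype.ofFinite _
      have : Fintype E := Fintype.ofFinite _
      refine twist_eq_zero_of_sub P hch hch x (E.map P.subtype) hEP (fun l hl => D.U_le (hE' l hl)) ?_
      have h1 : ∀ l : E.map P.subtype, ρ ⟨l, hEP l.2⟩ * conj (ρ ⟨x⁻¹ * l * x, D.U_le (hE' l l.2)⟩) =
          ρ ⟨l, hEP l.2⟩ * conj (ρ 1) := by
        intro l
        have h2 := hU 1 ⟨x⁻¹ * l * x, D.U_le (hE' l l.2)⟩ (hE' l l.2)
        rw [one_mul] at h2
        rw [h2]
      rw [Finset.sum_congr rfl fun l _ => h1 l, ← Finset.sum_mul]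
      have h3 : ∑ l : E.map P.subtype, ρ ⟨l, hEP l.2⟩ = ∑ d : E, ρ (d : P) := by
        refine (Fintype.sum_equiv (Subgroup.equivMapOfInjective E P.subtype P.subtype_injective).toEquiv _ _
          fun d => ?_).symm
        rfl
      have h4 := hsum 1
      rw [finsum_eq_sum_of_fintype] at h4
      simp only [mul_one] at h4
      rw [h3, h4, zero_mul])
  simpa using key

/-- **(D1)** -/
theorem inner_zero_or_one [Fintype G] [Fintype P] (D : Dat P U Lv C w) (hρ : Chr P U C w ρ) {χ : G → ℂ}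
    (hχ : IsIrrCharacter G χ) : classInner (fun x : P => χ x) ρ = 0 ∨ classInner (fun x : P => χ x) ρ = 1 := by
  classical
  have hch := Core.isIrr_isCharacter hρ.irr
  have hΘc : IsCharacter G (indFun P ρ) := Cfsg.Agent.S0148.result _ _ hch
  obtain ⟨m, hm⟩ := Core.classInner_isNat (Core.isCharacter_comp P.subtype (Core.isIrr_isCharacter hχ)) hch
  have hm' : classInner (fun x : P => χ x) ρ = m := hm
  by_cases hm0 : m = 0
  · left
    rw [hm', hm0, Nat.cast_zero]
  right
  have h1 : classInner (indFun P ρ) χ = m := by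
    rw [classInner_indFun _ _ _ (Core.isIrr_isClassFunction hχ), ← Core.classInner_conj_symm, hm',
      Complex.conj_natCast]
  have hle := norm_le_two D hρ
  -- `Ind ρ = χ + η`
  have hη := isCharacter_sub_irr hΘc hχ (by rw [h1]; exact_mod_cast hm0)
  obtain ⟨N, hN⟩ := Core.classInner_isNat hΘc hΘc
  obtain ⟨k, hk⟩ := Core.classInner_isNat hη hη
  have hcc : classInner χ (indFun P ρ) = (m : ℂ) := by
    rw [← Core.classInner_conj_symm, h1, Complex.conj_natCast]
  have h2 : classInner (indFun P ρ - χ) (indFun P ρ - χ) = N - 2 * (m : ℂ) + 1 := by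
    rw [Core.classInner_sub_left, Core.classInner_sub_right, Core.classInner_sub_right, hN, h1, hcc,
      Core.classInner_irr_self hχ]
    ring
  rw [hN, Complex.norm_natCast] at hle
  have hle' : N ≤ 2 := by exact_mod_cast hle
  have h3 : k + 2 * m = N + 1 := by
    rw [hk] at h2
    have : ((k + 2 * m : ℕ) : ℂ) = ((N + 1 : ℕ) : ℂ) := by
      push_cast
      linear_combination h2
    exact_mod_cast this
  have h4 : m = 1 := by omega
  rw [hm', h4, Nat.cast_one]

/-- **(D2)** -/
theorem exists_block [Finite G] [Fintype P] {p : ℕ} [Fact p.Prime] {M : Ideal AlgInt} (hM : IsPModular p M)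
    (ξ : IrrCharacter P) (hξ : ξ ∈ principalBlock M P) :
    ∃ χ : IrrCharacter G, χ ∈ principalBlock M G ∧ classInner (fun x : P => (χ : G → ℂ) x) (ξ : P → ℂ) ≠ 0 := by
  obtain ⟨χ, h1, -, h2⟩ := Cfsg.Agent.H362.HT.exists_over_any hM P ξ hξ
  exact ⟨χ, h1, h2⟩

end Cfsg.Agent.H420.HT.Dat1
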