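import Cfsg.Agent.H420.HT.D4Pair
import Cfsg.Agent.H420.HT.Dat1

/-!
# S4933, `³D₄(q)`: helper912's situation for groups with a root group datum of type `G₂` (helper420)

* `dat` : `Dat (PJ {0}) (VJ {0}) (LJ {0}) (CT T X 0) w`;
* `chr` : `Chr` for irreducible characters of `PJ {0}` trivial on `VJ {0}`, `CT T X 0`, with zero sum over `X (sr 0)`;
* `exists_dat`, `chr_D4` : the instance `³D₄(q)`.
-/

set_option autoImplicit false
set_option linter.unusedSectionVars false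

open scoped ComplexConjugate
open Cfsg

namespace Cfsg.Agent.H420.HT.DatD4

open Cfsg.Agent.Characters.Core in
/-- sums over cosets of a subgroup without fixed vectors -/
theorem sum_mul_eq_zero {G : Type*} [Group G] [Finite G] {U : Subgroup G} [Fintype U] {χ : G → ℂ}
    (hχ : IsCharacter G χ) (h : ∑ u : U, χ u = 0) (g : G) : ∑ u : U, χ (u * g) = 0 := by
  classical
  obtain ⟨n, ρ, rfl⟩ := hχ
  let σ : Representation ℂ U (Fin n → ℂ) := ρ.comp U.subtype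
  have hne : (Fintype.card U : ℂ) ≠ 0 := by exact_mod_cast Fintype.card_ne_zero
  let hinv : Invertible (Fintype.card U : ℂ) := invertibleOfNonzero hne
  have hp := σ.isProj_averageMap
  have h2 : σ.averageMap = (⅟ (Fintype.card U : ℂ)) • ∑ u : U, ρ u := by
    simp only [Representation.averageMap, GroupAlgebra.average, map_smul, map_sum]
    congr 1
    refine Finset.sum_congr rfl fun u _ => ?_
    rw [MonoidAlgebra.of_apply, Representation.asAlgebraHom_single_one]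
    rfl
  have h3 : LinearMap.trace ℂ _ σ.averageMap = 0 := by
    rw [h2, map_smul, map_sum]
    change _ • ∑ u : U, ρ.character u = 0
    rw [h, smul_zero]
  have h4 := hp.trace
  rw [h3] at h4
  have h5 : Module.finrank ℂ σ.invariants = 0 := by exact_mod_cast h4.symm
  have h6 : σ.invariants = ⊥ := Submodule.finrank_eq_zero.1 h5
  have h7 : σ.averageMap = 0 := by
    refine LinearMap.ext fun v => ?_
    have := hp.map_mem v
    rw [h6] at this
    rw [(Submodule.mem_bot ℂ).1 this]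
    rfl
  have h8 : ∑ u : U, ρ u = 0 := by
    rw [h2] at h7
    exact (smul_eq_zero.1 h7).resolve_left (Invertible.ne_zero _)
  have h9 : ∑ u : U, ρ.character (u * g) = LinearMap.trace ℂ _ ((∑ u : U, ρ u) * ρ g) := by
    rw [Finset.sum_mul, map_sum]
    refine Finset.sum_congr rfl fun u _ => ?_
    change LinearMap.trace ℂ _ (ρ (u * g)) = _
    rw [map_mul]
  rw [h9, h8, zero_mul, map_zero]

section gtwo

open CoxeterSystem Cfsg.Agent.ChevalleyStructure.CoxeterGeom Cfsg.Agent.Tits.Roots Cfsg.Agent.Tits.Core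
  Cfsg.Agent.Tits.Exchange Cfsg.Agent.Nodes.Reps Cfsg.Agent.Nodes.BNOf Cfsg.Agent.Nodes.StabComb
  Cfsg.Agent.Nodes.Bruhat Cfsg.Agent.Nodes.OppDec Cfsg.Agent.Nodes.LeviDec Cfsg.Agent.H115.HC.Two
  Cfsg.Agent.H115.HC Cfsg.Agent.LieRecognition.RankOneAbstract Cfsg.Agent.Characters.Core
  Cfsg.Agent.H53.HC Cfsg.Agent.H912.HT

variable {W Y : Type*} [Group W] [Group Y] {M : CoxeterMatrix (Fin 2)}
  {cs : CoxeterSystem M W} {A : Fin 2 → Fin 2 → ℤ} {h : IsCartan M A} {p : ℕ} {T : Subgroup Y} {n : Fin 2 → Y}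
  {X : (Fin 2 → ℤ) → Subgroup Y}

theorem CT_comm {x m : Y} (hx : x ∈ CT T X 0) (hm : m ∈ MJ cs h X {0}) : x * m = m * x := by
  obtain ⟨-, h1, h2⟩ := mem_CT.1 hx
  have h3 : MJ cs h X {0} ≤ Subgroup.centralizer {x} := by
    rw [MJ_single]
    refine sup_le ?_ ?_
    · intro u hu
      rw [Subgroup.mem_centralizer_singleton_iff]
      exact (h1 u hu).symm
    · intro u hu
      rw [Subgroup.mem_centralizer_singleton_iff]
      exact (h2 u hu).symm
  exact (Subgroup.mem_centralizer_singleton_iff.1 (h3 hm)).symm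

theorem vv_inv : (vv cs)⁻¹ = vv cs := by
  unfold vv
  simp only [mul_inv_rev, cs.inv_simple, mul_assoc]

variable (R : RGD cs h p T n X)

include R

/-- **The group theoretic situation.** -/
theorem dat [Finite W] (hTc : ∀ a ∈ T, ∀ b ∈ T, a * b = b * a) (hA : A 0 1 * A 1 0 = 3) {w : Y}
    (hw : Rp cs R.nsys (vv cs) w) (hwM : ∀ m ∈ MJ cs h X {0}, w * m = m * w) :
    Dat (PJ cs h T X {0}) (VJ cs h X {0}) (LJ cs h T X {0}) (CT T X 0) w where
  U_le := VJ_le_PJ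
  L_le := LJ_le_PJ
  C_le := le_trans CT_le T_le_LJ
  norm := fun x hx u hu => (Subgroup.mem_normalizer_iff.1 (PJ_le_normalizer_VJ R {0} hx) u).1 hu
  normC := by
    intro l hl x hx
    obtain ⟨t, ht, m, hm, rfl⟩ := (mem_LJ_iff_mul R _).1 hl
    have h1 := CT_comm hx hm
    have h2 := hTc t ht x (CT_le hx)
    have e : t * m * x * (t * m)⁻¹ = x := by
      calc t * m * x * (t * m)⁻¹ = t * (m * x) * m⁻¹ * t⁻¹ := by group
        _ = t * (x * m) * m⁻¹ * t⁻¹ := by rw [h1]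
        _ = (t * x) * t⁻¹ := by group
        _ = (x * t) * t⁻¹ := by rw [h2]
        _ = x := by group
    rw [e]
    exact hx
  prod := by
    intro x hx
    obtain ⟨l, hl, v, hv, e⟩ := (mem_PJ R).1 (inv_mem hx)
    exact ⟨v⁻¹, inv_mem hv, l⁻¹, inv_mem hl, by rw [← inv_inv x, e, mul_inv_rev]⟩
  comm := by
    intro l hl
    obtain ⟨s, hs, m, hm, rfl⟩ := (mem_LJ_iff_mul R _).1 hl
    have e : w * (s * m) * w⁻¹ * (s * m)⁻¹ = (w * s * w⁻¹) * s⁻¹ := by
      have h1 := hwM m hm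
      calc w * (s * m) * w⁻¹ * (s * m)⁻¹ = (w * s * w⁻¹) * (w * m) * w⁻¹ * m⁻¹ * s⁻¹ := by group
        _ = (w * s * w⁻¹) * (m * w) * w⁻¹ * m⁻¹ * s⁻¹ := by rw [h1]
        _ = _ := by group
    rw [e]
    have key : ∀ x, IsRoot cs h x → X x ≤ MJ cs h X {0} → ∀ u ∈ X x,
        (w * s * w⁻¹) * s⁻¹ * u = u * ((w * s * w⁻¹) * s⁻¹) := by
      intro x hx hle u hu
      have h2 : s⁻¹ * u * s ∈ X x := by
        have h3 := conj_mem_cj (g := s⁻¹) |>.2 hu
        rw [R.tor _ hx _ (inv_mem hs), inv_inv] at h3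
        exact h3
      have h4 : w⁻¹ * (s⁻¹ * u * s) = (s⁻¹ * u * s) * w⁻¹ := by
        have h5 := hwM _ (hle h2)
        calc w⁻¹ * (s⁻¹ * u * s) = w⁻¹ * ((s⁻¹ * u * s) * w) * w⁻¹ := by group
          _ = w⁻¹ * (w * (s⁻¹ * u * s)) * w⁻¹ := by rw [h5]
          _ = _ := by group
      have h6 := hwM _ (hle hu)
      calc (w * s * w⁻¹) * s⁻¹ * u = w * s * (w⁻¹ * (s⁻¹ * u * s)) * s⁻¹ := by group
        _ = w * s * ((s⁻¹ * u * s) * w⁻¹) * s⁻¹ := by rw [h4]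
        _ = (w * u) * s * w⁻¹ * s⁻¹ := by group
        _ = (u * w) * s * w⁻¹ * s⁻¹ := by rw [h6]
        _ = _ := by group
    refine mem_CT.2 ⟨mul_mem (conj_T' R hw hs) (inv_mem hs), key _ (isRoot_sr cs h 0) ?_,
      key _ (isRoot_sr cs h 0).neg ?_⟩
    · rw [MJ_single]
      exact le_sup_left
    · rw [MJ_single]
      exact le_sup_right
  sq := by
    have h1 : Rp cs R.nsys (vv cs) w⁻¹ := by
      have := hw.inv
      rwa [vv_inv] at this
    have h2 := h1.unique hw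
    rw [inv_inv] at h2
    have key : ∀ u ∈ MJ cs h X {0}, w * w * u = u * (w * w) := by
      intro u hu
      rw [mul_assoc, hwM u hu, ← mul_assoc, hwM u hu, mul_assoc]
    refine mem_CT.2 ⟨h2, fun u hu => key u ?_, fun u hu => key u ?_⟩
    · rw [MJ_single]
      exact Subgroup.mem_sup_left hu
    · rw [MJ_single]
      exact Subgroup.mem_sup_right hu
  opp := by
    intro u hu huP
    have h1 : Rp cs R.nsys (vv cs) w⁻¹ := by
      have := hw.inv
      rwa [vv_inv] at this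
    have h2 : (w⁻¹)⁻¹ * u * w⁻¹ ∈ VNJ cs h X {0} :=
      conj_mem_Sup' R h1 (fun x hx => hx.1) (fun x hx => vv_notJ hA hx) hu
    rw [inv_inv] at h2
    have h3 := eq_one_of_mem_VNJ_of_mem_PJ R h2 huP
    have h4 : u = w⁻¹ * (w * u * w⁻¹) * w := by group
    rw [h4, h3, mul_one, inv_mul_cancel]

/-- **The conditions on the character.** -/
theorem chr [Finite W] [Finite Y] (hG : GG cs h T X = ⊤) (hA : A 0 1 * A 1 0 = 3) {w : Y}
    (hw : Rp cs R.nsys (vv cs) w)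
    {ψ : ↥(PJ cs h T X {0}) → ℂ} (hψ : IsIrrCharacter _ ψ)
    (hV : ∀ (v : Y) (hv : v ∈ VJ cs h X {0}), ψ ⟨v, VJ_le_PJ hv⟩ = ψ 1)
    (hz : ∀ z (hz : z ∈ CT T X 0), ψ ⟨z, T_le_PJ _ (CT_le hz)⟩ = ψ 1)
    (hc : ∀ [Fintype (X (sr 0))], ∑ u : X (sr 0), ψ ⟨u, LJ_le_PJ (X_le_LJ_single 0 u.2)⟩ = 0) :
    Chr (PJ cs h T X {0}) (VJ cs h X {0}) (CT T X 0) w ψ := by
  classical
  have hch := isIrr_isCharacter hψ
  have hcl := isIrr_isClassFunction hψ
  have hker : ∀ x g : ↥(PJ cs h T X {0}), ψ x = ψ 1 → ψ (x * g) = ψ g := by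
    intro x g hx
    rw [← Cfsg.Agent.H597.Base.apply_mul_of_ker hch hx g, ← hcl (x * g) x⁻¹]
    congr 1
    group
  refine ⟨hψ, fun x g hx => hker x g (hV _ hx), fun x g hx => hker x g (hz _ hx), ?_⟩
  intro x hx hxB
  obtain ⟨a, ha, b, hb, v, k, hk, e, hvJ, hv1, hv2⟩ := exists_min_rep R hG {0} hx
  rcases perm_or hv1 hv2 with hp | ⟨i, hi, hrad⟩
  · exfalso
    apply hxB
    obtain ⟨j, hj, hj'⟩ := hp.2 0 rfl
    rw [Set.mem_singleton_iff] at hj
    subst hj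
    have hwv := eq_vv hA hvJ hj'
    subst hwv
    have ht := hw.unique hk
    refine ⟨a, ha, w⁻¹ * k * b, mul_mem (T_le_PJ _ ht) hb, ?_⟩
    rw [e]
    group
  · rw [Set.mem_singleton_iff] at hi
    subst hi
    have hconj : ∀ u ∈ X (sr 0), k⁻¹ * u * k ∈ VJ cs h X {0} := by
      intro u hu
      have h1 : (sr 0 : Fin 2 → ℤ) ∈ PosRad cs h {0} 0 :=
        ⟨sr_mem_PosJ (Set.mem_singleton 0), by rw [sr_self]; norm_num⟩
      exact RGD.le_Sup (hrad _ h1) (R.conj_mem' hk (isRoot_sr cs h 0) hu)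
    have hXP : X (sr 0) ≤ PJ cs h T X {0} := le_trans (X_le_LJ_single 0) LJ_le_PJ
    let D : Subgroup ↥(PJ cs h T X {0}) :=
      ((X (sr 0)).subgroupOf (PJ cs h T X {0})).map (MulAut.conj (⟨a, ha⟩ : ↥(PJ cs h T X {0}))).toMonoidHom
    refine ⟨D, ?_, ?_⟩
    · rintro _ ⟨u, hu, rfl⟩
      have hu' : (u : Y) ∈ X (sr 0) := Subgroup.mem_subgroupOf.1 hu
      have e1 : x⁻¹ * (((MulAut.conj (⟨a, ha⟩ : ↥(PJ cs h T X {0}))).toMonoidHom u : ↥(PJ cs h T X {0})) : Y) * x =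
          b⁻¹ * (k⁻¹ * u * k) * b := by
        show x⁻¹ * (a * u * a⁻¹) * x = _
        rw [e]
        group
      rw [e1]
      have h1 := (Subgroup.mem_normalizer_iff.1 (PJ_le_normalizer_VJ R {0} (inv_mem hb)) _).1 (hconj _ hu')
      rwa [inv_inv] at h1
    · intro g
      have : Fintype D := Fintype.ofFinite _
      have : Fintype (X (sr 0)) := Fintype.ofFinite _
      rw [finsum_eq_sum_of_fintype]
      refine sum_mul_eq_zero hch ?_ g
      rw [← hc]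
      symm
      refine Fintype.sum_equiv ((Subgroup.subgroupOfEquivOfLe hXP).symm.toEquiv.trans
        (Subgroup.equivMapOfInjective _ (MulAut.conj (⟨a, ha⟩ : ↥(PJ cs h T X {0}))).toMonoidHom
          (MulAut.conj (⟨a, ha⟩ : ↥(PJ cs h T X {0}))).injective).toEquiv) _ _ fun u => ?_
      have e2 : (((Subgroup.subgroupOfEquivOfLe hXP).symm.toEquiv.trans
        (Subgroup.equivMapOfInjective _ (MulAut.conj (⟨a, ha⟩ : ↥(PJ cs h T X {0}))).toMonoidHom
          (MulAut.conj (⟨a, ha⟩ : ↥(PJ cs h T X {0}))).injective).toEquiv u : D) : ↥(PJ cs h T X {0})) =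
          ⟨a, ha⟩ * ⟨u, hXP u.2⟩ * ⟨a, ha⟩⁻¹ := rfl
      rw [e2, hcl]

end gtwo

section inst

open CoxeterSystem Cfsg.Agent.ChevalleyStructure.CoxeterGeom Cfsg.Agent.Tits.Roots Cfsg.Agent.Tits.Core
  Cfsg.Agent.Tits.RootComb Cfsg.Agent.Nodes.Comb Cfsg.Agent.Nodes.Reps Cfsg.Agent.Nodes.BNOf
  Cfsg.Agent.Nodes.BNOf.RGD Cfsg.Agent.Nodes.RGDChev Cfsg.Agent.Nodes.RGDFold
open Cfsg.Agent.Nodes.Bruhat Cfsg.Agent.Nodes.LeviDec Cfsg.Agent.H53.HC Cfsg.Agent.H115.HC.Two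
open Cfsg.Lie Cfsg.Agent.ChevalleyStructure Cfsg.Agent.ChevalleyStructure.TwistedU
  Cfsg.Agent.ChevalleyStructure.TwistedFix Cfsg.Agent.ChevalleyStructure.TwistedFixOrbit
open Cfsg.Agent.Nodes.RGDFoldSL
open Cfsg.Agent.BiChar.TwDFour
open Cfsg.Agent.H115.HC Cfsg.Agent.Characters Cfsg.Agent.H912.HT Cfsg.Agent.H420.HT.D4Pair

variable {K : Type} [Field K] [Fintype K] {q : ℕ} {φ : K →+* K}

/-- the kernel of the action of the Levi subgroup on the long root groups -/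
noncomputable abbrev CC (φ : K →+* K) (q : ℕ) : Subgroup ↥(twistedD4 K q) :=
  CT (Nodes.RGDTwD4.T K q) (Nodes.RGDTwD4.X φ q) (0 : Fin 2)

/-- **`³D₄(q)`: helper912's situation.** -/
theorem exists_dat (hK : Fintype.card K = q ^ 3) (hφ : ∀ x, φ x = x ^ q) :
    ∃ w : ↥(twistedD4 K q), Dat (PP φ q) (VV φ q) (LL φ q) (CC φ q) w ∧ (∀ m ∈ MM φ q, w * m = m * w) ∧
      ∀ ρ : ↥(PP φ q) → ℂ, IsIrrCharacter _ ρ →
        (∀ v (hv : v ∈ VV φ q), ρ ⟨v, VJ_le_PJ hv⟩ = ρ 1) →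
        (∀ z (hz : z ∈ CC φ q), ρ ⟨z, T_le_PJ _ (CT_le hz)⟩ = ρ 1) →
        (∀ [Fintype (Nodes.RGDTwD4.X φ q (sr 0))], ∑ u : Nodes.RGDTwD4.X φ q (sr 0),
          ρ ⟨u, LJ_le_PJ (X_le_LJ_single 0 u.2)⟩ = 0) → Chr (PP φ q) (VV φ q) (CC φ q) w ρ := by
  classical
  obtain ⟨r, hch⟩ := CharP.exists K
  have : Fact r.Prime := ⟨CharP.char_is_prime K r⟩
  have hle := D4Fixed.twisted_le_fix hK hφ
  have : Finite CoxeterMatrix.G₂.Group := Nodes.RGDChev.finite_W Cfsg.Agent.BiChar.GTwo.isType cs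
  have Rg := Nodes.RGDTwD4.rgd (K := K) cs hK hφ r
  obtain ⟨w, hw, hwM⟩ := Cfsg.Agent.H420.HT.D4.exists_g Rg
    TwDFour.r12.symm
    (TwDFour.hC (p := r) hφ hle hK (o := [21, 17, 20]) (by decide) TwDFour.cls12)
    (TwDFour.hC (p := r) hφ hle hK (o := [2, 6, 3]) (by decide) TwDFour.cls12')
  exact ⟨w, dat Rg TwDFour.T_comm (by decide) hw hwM, hwM, fun ρ hρ hV hz hc =>
    chr Rg (TwDFour.GG_top hφ hK) (by decide) hw hρ hV hz hc⟩

end inst

end Cfsg.Agent.H420.HT.DatD4
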